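import Mathlib
import Cfsg.Agent.H125.Hall.Defs
import Cfsg.Agent.H408.Pron.Defs
import Cfsg.Agent.H716.RGDAb
import Cfsg.Agent.KFacts.RgdAut

/-!
# S2223, HALLPRO OV (helper618, task 4193)

Every subgroup which contains a Sylow `p`-subgroup of a group of Lie type of characteristic `p` with a root group
datum with commutative torus is pronormal (copy of `H829/Pron/CharTwo.lean` with `2` replaced by `p`).
-/

set_option autoImplicit false
set_option linter.unusedSectionVars false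

namespace Cfsg.Agent.H618.Hall

open Cfsg Cfsg.Agent.H125.Hall Cfsg.Agent.H94.Pronormal
open scoped Pointwise

/-- It suffices to look at the overgroups of one Sylow subgroup. -/
theorem ov_of_sylow {p : ℕ} [Fact p.Prime] {G : Type*} [Group G] [Finite G] (S : Sylow p G)
    (h1 : ∀ H : Subgroup G, (S : Subgroup G) ≤ H →
      ∀ m ∈ Subgroup.normalizer ((S : Subgroup G) : Set G),
      ∃ x ∈ H ⊔ H.map (MulAut.conj m).toMonoidHom,
        H.map (MulAut.conj m).toMonoidHom = H.map (MulAut.conj x).toMonoidHom) : OV p G := by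
  intro P H hP
  obtain ⟨c, rfl⟩ := MulAction.exists_smul_eq G S P
  have h3 : (S : Subgroup G) ≤ H.map (MulAut.conj c⁻¹).toMonoidHom := by
    intro s hs
    rw [Cfsg.Agent.H158.PronProd.mem_map_conj, inv_inv]
    apply hP
    rw [Sylow.coe_subgroup_smul, Subgroup.mem_pointwise_smul_iff_inv_smul_mem]
    have h0 : (MulAut.conj c)⁻¹ • (c * s * c⁻¹) = s := by
      rw [← map_inv, MulAut.smul_def, MulAut.conj_apply, inv_inv]
      group
    rw [h0]; exact hs
  have h4 := isPronormal_of_sylow S _ h3 (h1 _ h3)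
  have h5 := Cfsg.Agent.H408.Pron.isPronormal_conj h4 c
  rwa [← map_conj_mul, mul_inv_cancel, map_conj_one] at h5

/-- `N(S)` normalises every overgroup of `S` -/
theorem ov_of_norm {p : ℕ} [Fact p.Prime] {G : Type*} [Group G] [Finite G] (S : Sylow p G)
    (h : ∀ H : Subgroup G, (S : Subgroup G) ≤ H → ∀ m ∈ Subgroup.normalizer ((S : Subgroup G) : Set G),
      ∀ x ∈ H, m * x * m⁻¹ ∈ H) : OV p G := by
  refine ov_of_sylow S fun H hH m hm => ⟨1, one_mem _, ?_⟩
  rw [map_conj_one]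
  apply Subgroup.eq_of_le_of_card_ge
  · rintro _ ⟨x, hx, rfl⟩
    exact h H hH m hm x hx
  · rw [Subgroup.card_map_of_injective (MulAut.conj m : G ≃* G).injective]

/-- **The abstract row.** -/
theorem ov_of_bn {p : ℕ} [Fact p.Prime] {G : Type*} [Group G] [Finite G] (S : Sylow p G) (T : Subgroup G)
    (hTS : ∀ t ∈ T, ∀ x ∈ (S : Subgroup G), t * x * t⁻¹ ∈ (S : Subgroup G))
    (hTc : ∀ s ∈ T, ∀ t ∈ T, s * t = t * s)
    (hN : ∀ g ∈ Subgroup.normalizer ((S : Subgroup G) : Set G), ∃ u ∈ (S : Subgroup G), ∃ t ∈ T, g = u * t)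
    (hB : ∀ g : G, ∃ a ∈ (S : Subgroup G), ∃ n : G, (∀ t ∈ T, n⁻¹ * t * n ∈ T) ∧
      ∃ b ∈ (S : Subgroup G), g = a * n * b) : OV p G := by
  refine ov_of_norm S fun H hH m hm => ?_
  obtain ⟨u, hu, t, ht, rfl⟩ := hN m hm
  have key : ∀ x ∈ H, t * x * t⁻¹ ∈ H := by
    intro x hx
    obtain ⟨a, ha, n, hn, b, hb, hx'⟩ := hB x
    obtain ⟨K, hK⟩ : ∃ K : Subgroup G, K = (S : Subgroup G) ⊔ (S : Subgroup G).map (MulAut.conj n).toMonoidHom :=
      ⟨_, rfl⟩
    have hSK : (S : Subgroup G) ≤ K := by rw [hK]; exact le_sup_left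
    have hnS : ∀ s ∈ (S : Subgroup G), n * s * n⁻¹ ∈ K := fun s hs => by
      rw [hK]; exact Subgroup.mem_sup_right ⟨s, hs, rfl⟩
    have hxS : ∀ s ∈ (S : Subgroup G), x * s * x⁻¹ ∈ K := by
      intro s hs
      have h1 : n * (b * s * b⁻¹) * n⁻¹ ∈ K := hnS _ (mul_mem (mul_mem hb hs) (inv_mem hb))
      have h2 := mul_mem (mul_mem (hSK ha) h1) (inv_mem (hSK ha))
      rw [hx']
      convert h2 using 1
      group
    have hKH : K ≤ H := by
      have hn' : n = a⁻¹ * x * b⁻¹ := by rw [hx']; group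
      have hnH : n ∈ H := by
        rw [hn']
        exact mul_mem (mul_mem (inv_mem (hH ha)) hx) (inv_mem (hH hb))
      rw [hK]
      refine sup_le hH ?_
      rintro _ ⟨s, hs, rfl⟩
      exact mul_mem (mul_mem hnH (hH hs)) (inv_mem hnH)
    -- `t` normalises `K`
    have htK : K ≤ K.comap (MulAut.conj t).toMonoidHom := by
      conv_lhs => rw [hK]
      refine sup_le (fun s hs => hSK (hTS t ht s hs)) ?_
      rintro _ ⟨s, hs, rfl⟩
      have h1 := hnS _ (hTS _ (hn t ht) s hs)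
      show t * (n * s * n⁻¹) * t⁻¹ ∈ K
      convert h1 using 1
      group
    -- Sylow in `K`
    have hle : ((x • S : Sylow p G) : Subgroup G) ≤ K := by
      rw [Sylow.coe_subgroup_smul]
      intro y hy
      obtain ⟨s, hs, rfl⟩ := (Subgroup.mem_smul_pointwise_iff_exists _ _ _).1 hy
      exact hxS s hs
    obtain ⟨k, hk⟩ := MulAction.exists_smul_eq K (S.subtype hSK) ((x • S).subtype hle)
    have hk' : (k : G) • S = x • S := by
      rw [Sylow.smul_subtype] at hk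
      exact Sylow.subtype_injective hk
    have hk2 : (k : G)⁻¹ * x ∈ Subgroup.normalizer ((S : Subgroup G) : Set G) :=
      Sylow.smul_eq_iff_mem_normalizer.1 (by rw [mul_smul, ← hk', inv_smul_smul])
    obtain ⟨v, hv, s, hs, e⟩ := hN _ hk2
    have e2 : x = (k * v) * s := by
      rw [mul_assoc, ← e]; group
    have h3 : (k : G) * v ∈ K := mul_mem k.2 (hSK hv)
    have hsH : s ∈ H := by
      have : s = ((k : G) * v)⁻¹ * x := by rw [e2]; group
      rw [this]
      exact mul_mem (inv_mem (hKH h3)) hx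
    have h4 : t * ((k : G) * v) * t⁻¹ ∈ H := hKH (htK h3)
    have e3 : t * x * t⁻¹ = (t * ((k : G) * v) * t⁻¹) * s := by
      have h5 : t * s = s * t := hTc t ht s hs
      rw [e2]
      calc t * (k * v * s) * t⁻¹ = t * (k * v) * t⁻¹ * (t * s) * t⁻¹ := by group
        _ = _ := by rw [h5]; group
    rw [e3]
    exact mul_mem h4 hsH
  intro x hx
  have h1 := mul_mem (mul_mem (hH hu) (key x hx)) (inv_mem (hH hu))
  convert h1 using 1
  group

/-! ### root group data with commutative torus -/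

open CoxeterSystem Cfsg.Agent.ChevalleyStructure.CoxeterGeom Cfsg.Agent.Tits.Roots Cfsg.Agent.Tits.Core
  Cfsg.Agent.Nodes.Reps Cfsg.Agent.Nodes.BNOf Cfsg.Agent.Nodes.StabComb
  Cfsg.Agent.Nodes.Bruhat Cfsg.Agent.KFacts.RgdAut Cfsg.Agent.H716.RGDAb

theorem ov_of_rgdAb {p : ℕ} [Fact p.Prime] {G : Type*} [Group G] [Finite G] (hG : HasRGDAb p G) : OV p G := by
  obtain ⟨l, M, A, h, T, n, X, hW, R, hX, hab⟩ := hG
  have hGG : GG M.toCoxeterSystem h T X = ⊤ := by
    rw [eq_top_iff, ← hX]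
    exact le_sup_right
  obtain ⟨S, hS⟩ : ∃ S : Sylow p G, (S : Subgroup G) = RGD.Sup X (RGD.Pos M.toCoxeterSystem h) := by
    obtain ⟨S', hS'⟩ := R.isPGroup_Upos.exists_le_sylow
    exact ⟨S', Cfsg.Agent.Nodes.NormalForm.eq_U_of_isPGroup R S'.2 hS' (by rw [hGG]; exact le_top)⟩
  have hTN := R.T_le_normalizer_U
  have hTS : ∀ t ∈ T, ∀ x ∈ (S : Subgroup G), t * x * t⁻¹ ∈ (S : Subgroup G) := by
    intro t ht x hx
    rw [hS] at hx ⊢
    exact (Subgroup.mem_normalizer_iff.1 (hTN ht) x).1 hx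
  refine ov_of_bn S T hTS hab ?_ ?_
  · intro g hg
    rw [hS] at hg
    have h1 : g ∈ RGD.B M.toCoxeterSystem h T X := by
      rw [← normalizer_U' R hGG]
      exact hg
    obtain ⟨t, ht, u, hu, rfl⟩ := R.mem_B.1 h1
    refine ⟨t * u * t⁻¹, hTS t ht u (by rw [hS]; exact hu), t, ht, by group⟩
  · intro g
    have hg : g ∈ GG M.toCoxeterSystem h T X := by rw [hGG]; exact Subgroup.mem_top g
    obtain ⟨w, b₁, hb₁, k, hk, b₂, hb₂, e⟩ := (mem_GG R).1 hg
    obtain ⟨t, ht, u, hu, rfl⟩ := R.mem_B.1 hb₁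
    obtain ⟨t', ht', u', hu', rfl⟩ := R.mem_B.1 hb₂
    have hkn := hk.mem_normalizer
    refine ⟨t * u * t⁻¹, hTS t ht u (by rw [hS]; exact hu), t * k * t', ?_, u', by rw [hS]; exact hu', ?_⟩
    · intro s hs
      have h1 : k⁻¹ * (t⁻¹ * s * t) * k ∈ T := by
        have h2 := (Subgroup.mem_normalizer_iff.1 (inv_mem hkn) (t⁻¹ * s * t)).1
          (mul_mem (mul_mem (inv_mem ht) hs) ht)
        rwa [inv_inv] at h2
      have h3 := mul_mem (mul_mem (inv_mem ht') h1) ht'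
      convert h3 using 1
      group
    · rw [e]; group

variable {p : ℕ} [Fact p.Prime] {G : Type*} [Group G] [Finite G]

theorem ov_psl (h : IsPSLChar p G) : OV p G := by
  obtain ⟨F, _, _, _, n, hn, -, ⟨e⟩⟩ := h
  obtain ⟨n, rfl⟩ : ∃ k, n = k + 1 := ⟨n - 1, by omega⟩
  exact ov_of_rgdAb ((ab_PSL n).of_equiv e.symm)

theorem ov_psp (h : IsPSpChar p G) : OV p G := by
  obtain ⟨F, _, _, _, m, hm, -, ⟨e⟩⟩ := h
  exact ov_of_rgdAb ((ab_PSp (by omega)).of_equiv e.symm)

theorem ov_psu (h : IsPSUChar p G) : OV p G := by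
  obtain ⟨F, _, _, _, n, q, hF, hn, -, ⟨e⟩⟩ := h
  exact ov_of_rgdAb ((ab_PSU hF hn).of_equiv e.symm)

theorem ov_exc (h : IsExceptionalChevChar p G) : OV p G := ov_of_rgdAb (ab_exc h)

theorem ov_tw (h : IsTwistedE6D4Char p G) : OV p G := ov_of_rgdAb (ab_tw h)

/-- Stub `ov_rows` of `tools/plans/S2223_stubs.lean.txt`. -/
theorem ov_rows {p : ℕ} [Fact p.Prime] (_hp : p ≠ 2) {G : Type} [Group G] [Finite G] [IsSimpleGroup G]
    (h : Cfsg.IsPSLChar p G ∨ Cfsg.IsPSpChar p G ∨ Cfsg.IsPSUChar p G ∨ Cfsg.IsExceptionalChevChar p G ∨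
      Cfsg.IsTwistedE6D4Char p G) : OV p G := by
  rcases h with h | h | h | h | h
  · exact ov_psl h
  · exact ov_psp h
  · exact ov_psu h
  · exact ov_exc h
  · exact ov_tw h

end Cfsg.Agent.H618.Hall
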